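import Cfsg.Agent.H274.OT.FrameConc
import Cfsg.Agent.H460.OT.Conc

/-!
# S2539 (piece 0.4): the Borel–Tits input and the frame without hypotheses

* `bt : Hyp K p D → BT D K p`;
* `mem_MF` : the elements of `MF D K F` are `d n`; `good_iff : Good D K F ↔ F ≤ MF D K F`;
* for `h : Hyp K p D`, `hF : MinBad D K F`: `hF.MF_lt h`, `hF.op h`, `hF.loc_lt h`, `hF.loc h`, `hF.root h`,
  `hF.eq_iSup h` (`T`-invariant `p`-subgroups of `F` are products of root subgroups in `S_F`).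
-/

set_option autoImplicit false

namespace Cfsg.Agent.H274.OT

open Cfsg Cfsg.Lie Cfsg.Lie.ChevalleyDatum
open Cfsg.Agent.ChevalleyStructure Cfsg.Agent.ChevalleyStructure.Elts
open Cfsg.Agent.H412.OT

universe u

variable {D : ChevalleyDatum} {K : Type u} [Field K] [Fintype K] {p : ℕ}

theorem mem7 {D : ChevalleyDatum} (h : D ∈ [chevG2, chevD4, chevF4, chevE6, chevE7, chevE8]) :
    D ∈ [chevG2, chevB2, chevD4, chevF4, chevE6, chevE7, chevE8] := by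
  simp only [List.mem_cons, List.not_mem_nil, or_false] at h ⊢
  tauto

theorem card13 (h : Hyp K p D) : 13 ≤ Nat.card K := by
  rw [Nat.card_eq_fintype_card]; exact h.card

/-- **The Borel–Tits input.** -/
theorem bt [Fact p.Prime] [CharP K p] (h : Hyp K p D) : BT D K p := by
  intro F hTF hFG Q hQF hQ hQ1 hN
  obtain ⟨V, L, hVF, hLF, hTL, hV, hQV, hVL, hFV, hall⟩ :=
    H460.OT.overgroup_split (p := p) (mem7 h.mem) (card13 h) hTF hFG hQF hQ hQ1 hN
  refine ⟨L, hTL, lt_of_le_of_ne hLF fun e => hQ1 ?_, fun x hx => ?_⟩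
  · rw [eq_bot_iff, ← hVL]
    exact le_inf hQV (e ▸ hQF)
  · obtain ⟨v, hv, l, hl, e⟩ := hall x hx
    refine ⟨v, ?_, l, hl, e⟩
    have h1 := H460.OT.inv_pgroup (p := p) (mem7 h.mem) (card13 h) (le_trans hVF hFG) hV (le_trans hTF hFV)
    have h2 : V ≤ DF D K F := by
      rw [h1]
      exact iSup₂_le fun r hr => rootSubgroup_le_DF ⟨hr.1, le_trans hr.2 hVF⟩
    exact h2 hv

/-- `N_F(T)` normalises `D_F` -/
theorem norm_le_normalizer_DF (h : Hyp K p D) {F : Subgroup (GL D.Idx K)} (hFG : F ≤ D.group K) :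
    F ⊓ Subgroup.normalizer (D.diagonalSubgroup K : Set (GL D.Idx K)) ≤
      Subgroup.normalizer (DF D K F : Set (GL D.Idx K)) := by
  have key : ∀ g ∈ F ⊓ Subgroup.normalizer (D.diagonalSubgroup K : Set (GL D.Idx K)), ∀ x ∈ DF D K F,
      g * x * g⁻¹ ∈ DF D K F := by
    intro g hg x hx
    have h1 : DF D K F ≤ (DF D K F).comap (MulAut.conj g).toMonoidHom := by
      refine iSup₂_le fun r hr => ?_
      rw [← Subgroup.map_le_iff_le_comap]
      obtain ⟨s, hs, e⟩ := H460.OT.conj_rootSubgroup (mem7 h.mem) (card13 h) (hFG hg.1) hg.2 hr.1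
      rw [e]
      refine rootSubgroup_le_DF ⟨hs, ?_⟩
      rw [← e]
      rintro _ ⟨y, hy, rfl⟩
      exact F.mul_mem (F.mul_mem hg.1 (hr.2 hy)) (F.inv_mem hg.1)
    have h2 := h1 hx
    rw [Subgroup.mem_comap] at h2
    exact h2
  intro g hg
  rw [Subgroup.mem_normalizer_iff]
  intro x
  refine ⟨key g hg x, fun h1 => ?_⟩
  have h2 := key g⁻¹ (inv_mem hg) _ h1
  have e : g⁻¹ * (g * x * g⁻¹) * g⁻¹⁻¹ = x := by group
  rwa [e] at h2

/-- the elements of `M_F` -/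
theorem mem_MF (h : Hyp K p D) {F : Subgroup (GL D.Idx K)} (hFG : F ≤ D.group K) {x : GL D.Idx K} :
    x ∈ MF D K F ↔ ∃ d ∈ DF D K F, ∃ n ∈ F,
      n ∈ Subgroup.normalizer (D.diagonalSubgroup K : Set (GL D.Idx K)) ∧ x = d * n := by
  constructor
  · intro hx
    have h1 : x ∈ ((DF D K F ⊔ (F ⊓ Subgroup.normalizer (D.diagonalSubgroup K : Set (GL D.Idx K))) :
        Subgroup (GL D.Idx K)) : Set (GL D.Idx K)) := hx
    rw [Subgroup.coe_mul_of_right_le_normalizer_left _ _ (norm_le_normalizer_DF h hFG), Set.mem_mul] at h1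
    obtain ⟨d, hd, n, hn, e⟩ := h1
    exact ⟨d, hd, n, hn.1, hn.2, e.symm⟩
  · rintro ⟨d, hd, n, hn, hn', rfl⟩
    exact mul_mem (DF_le_MF F hd) (norm_le_MF F ⟨hn, hn'⟩)

theorem good_iff (h : Hyp K p D) {F : Subgroup (GL D.Idx K)} (hFG : F ≤ D.group K) :
    Good D K F ↔ F ≤ MF D K F :=
  ⟨fun h1 => h1.le_MF, fun h1 _ hx => (mem_MF h hFG).1 (h1 hx)⟩

theorem good_iff_eq (h : Hyp K p D) {F : Subgroup (GL D.Idx K)} (hFG : F ≤ D.group K) :
    Good D K F ↔ MF D K F = F :=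
  ⟨fun h1 => h1.eq_MF, fun h1 => (good_iff h hFG).2 (le_of_eq h1.symm)⟩

end Cfsg.Agent.H274.OT

namespace Cfsg.Agent.H412.OT.MinBad

open Cfsg Cfsg.Lie Cfsg.Lie.ChevalleyDatum
open Cfsg.Agent.ChevalleyStructure Cfsg.Agent.ChevalleyStructure.Elts
open Cfsg.Agent.H412.OT Cfsg.Agent.H274.OT

universe u

variable {D : ChevalleyDatum} {K : Type u} [Field K] [Fintype K] {F : Subgroup (GL D.Idx K)} {p : ℕ}

/-- `M < F` -/
theorem MF_lt (hF : MinBad D K F) (h : Hyp K p D) : MF D K F < F :=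
  lt_of_le_of_ne (MF_le F) fun e => hF.bad ((good_iff_eq h hF.le).2 e)

/-- `M` is the unique maximal subgroup of `F` containing `T` -/
theorem lt_iff_le_MF (hF : MinBad D K F) (h : Hyp K p D) {H : Subgroup (GL D.Idx K)}
    (hT : D.diagonalSubgroup K ≤ H) : H < F ↔ H ≤ MF D K F :=
  ⟨fun h1 => hF.le_MF_of_lt hT h1, fun h1 => lt_of_le_of_lt h1 (hF.MF_lt h)⟩

/-- `O_p(F) = 1` -/
theorem op [Fact p.Prime] [CharP K p] (hF : MinBad D K F) (h : Hyp K p D) {Q : Subgroup (GL D.Idx K)}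
    (hQF : Q ≤ F) (hQ : IsPGroup p ↥Q) (hN : F ≤ Subgroup.normalizer (Q : Set (GL D.Idx K))) : Q = ⊥ :=
  hF.op_eq_bot (bt h) hQF hQ hN

theorem loc_lt [Fact p.Prime] [CharP K p] (hF : MinBad D K F) (h : Hyp K p D) {Q : Subgroup (GL D.Idx K)}
    (hQF : Q ≤ F) (hQ : IsPGroup p ↥Q) (hQ1 : Q ≠ ⊥) :
    F ⊓ Subgroup.normalizer (Q : Set (GL D.Idx K)) < F := hF.local_lt (bt h) hQF hQ hQ1

/-- `N_F(Q) ≤ M` -/
theorem loc [Fact p.Prime] [CharP K p] (hF : MinBad D K F) (h : Hyp K p D) {Q : Subgroup (GL D.Idx K)}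
    (hQF : Q ≤ F) (hQ : IsPGroup p ↥Q) (hQ1 : Q ≠ ⊥)
    (hT : D.diagonalSubgroup K ≤ Subgroup.normalizer (Q : Set (GL D.Idx K))) :
    F ⊓ Subgroup.normalizer (Q : Set (GL D.Idx K)) ≤ MF D K F := hF.local_le (bt h) hQF hQ hQ1 hT

/-- `N_F(X_r) ≤ M` -/
theorem root [Fact p.Prime] [CharP K p] (hF : MinBad D K F) (h : Hyp K p D) {r : ℕ} (hr : r ∈ SF D K F) :
    F ⊓ Subgroup.normalizer (D.rootSubgroup K r : Set (GL D.Idx K)) ≤ MF D K F :=
  hF.local_root h.inList (bt h) hr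

/-- `T`-invariant `p`-subgroups of `F` are generated by root subgroups of `F` -/
theorem eq_iSup [Fact p.Prime] [CharP K p] (hF : MinBad D K F) (h : Hyp K p D) {Q : Subgroup (GL D.Idx K)}
    (hQF : Q ≤ F) (hQ : IsPGroup p ↥Q)
    (hT : D.diagonalSubgroup K ≤ Subgroup.normalizer (Q : Set (GL D.Idx K))) :
    Q = ⨆ r ∈ {r ∈ SF D K F | D.rootSubgroup K r ≤ Q}, D.rootSubgroup K r := by
  have h1 := H460.OT.inv_pgroup (p := p) (mem7 h.mem) (card13 h) (le_trans hQF hF.le) hQ hT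
  apply le_antisymm
  · conv_lhs => rw [h1]
    exact iSup₂_le fun r hr => le_iSup₂ (f := fun r (_ : r ∈ {r ∈ SF D K F | D.rootSubgroup K r ≤ Q}) =>
      D.rootSubgroup K r) r ⟨⟨hr.1, le_trans hr.2 hQF⟩, hr.2⟩
  · exact iSup₂_le fun r hr => hr.2

/-- a `T`-invariant `p`-subgroup of `F` lies in `D_F`; it is trivial if `S_F` is empty -/
theorem le_DF [Fact p.Prime] [CharP K p] (hF : MinBad D K F) (h : Hyp K p D) {Q : Subgroup (GL D.Idx K)}
    (hQF : Q ≤ F) (hQ : IsPGroup p ↥Q)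
    (hT : D.diagonalSubgroup K ≤ Subgroup.normalizer (Q : Set (GL D.Idx K))) : Q ≤ DF D K F := by
  rw [hF.eq_iSup h hQF hQ hT]
  exact iSup₂_le fun r hr => rootSubgroup_le_DF hr.1

theorem eq_bot_of_SF_empty [Fact p.Prime] [CharP K p] (hF : MinBad D K F) (h : Hyp K p D)
    (hS : SF D K F = ∅) {Q : Subgroup (GL D.Idx K)} (hQF : Q ≤ F) (hQ : IsPGroup p ↥Q)
    (hT : D.diagonalSubgroup K ≤ Subgroup.normalizer (Q : Set (GL D.Idx K))) : Q = ⊥ := by
  rw [eq_bot_iff]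
  refine le_trans (hF.le_DF h hQF hQ hT) (iSup₂_le fun r hr => ?_)
  rw [hS] at hr
  exact absurd hr (Set.notMem_empty r)

omit [Fintype K] in
/-- if `S_F` is empty then `M = N_F(T)` -/
theorem MF_eq_of_SF_empty (hS : SF D K F = ∅) :
    MF D K F = F ⊓ Subgroup.normalizer (D.diagonalSubgroup K : Set (GL D.Idx K)) := by
  unfold MF
  have : DF D K F = ⊥ := by
    rw [eq_bot_iff]
    refine iSup₂_le fun r hr => ?_
    rw [hS] at hr
    exact absurd hr (Set.notMem_empty r)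
  rw [this, bot_sup_eq]

end Cfsg.Agent.H412.OT.MinBad
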