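import Cfsg.Agent.H175.OT.SubA

/-!
# S2539, part 5: the data of the ends (helper274)

(i) `S_F = {s, -s}` : `n = n_s(1) ∈ D_F`, `n² = z = h_s(-1)`, `n ∉ T`, `z ∈ Y_0 = T ∩ C(D_F)`, `z² = 1`, `z` is central in `M_F`;
(ii) `a`, `c` with `⟨a, c^∨⟩ = 1` in `S_F` : `u = x_a(1) h_c(-1) ∈ D_F`, `u² = 1`, `u ∉ T`.
-/

set_option autoImplicit false
set_option linter.unusedSectionVars false

namespace Cfsg.Agent.H274.OT

open Subgroup
open Cfsg Cfsg.Lie Cfsg.Lie.ChevalleyDatum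
open Cfsg.Agent.ChevalleyStructure Cfsg.Agent.ChevalleyStructure.Elts Cfsg.Agent.ChevalleyStructure.NPerm
open Cfsg.Agent.H412.OT Cfsg.Agent.H194.OT Cfsg.Agent.H175.OT
open Cfsg.Agent.ChevalleyStructure.SL2Hom (up lo)

universe u

variable {D : ChevalleyDatum} {K : Type u} [Field K]

theorem neg_one_ne_zero' : (-1 : K) ≠ 0 := neg_ne_zero.2 one_ne_zero

theorem wd_sq : (wd : Matrix.SpecialLinearGroup (Fin 2) K) ^ 2 = hd (-1) := by
  rw [pow_two]
  apply ext2 <;> rw [mul2]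
  · show (0 : K) * 0 + 1 * (-1) = ((-1 : Kˣ) : K)
    rw [Units.val_neg, Units.val_one]
    ring
  · show (0 : K) * 1 + 1 * 0 = 0
    ring
  · show (-1 : K) * 0 + 0 * (-1) = 0
    ring
  · show (-1 : K) * 1 + 0 * 0 = (((-1 : Kˣ)⁻¹ : Kˣ) : K)
    rw [inv_neg, inv_one, Units.val_neg, Units.val_one]
    ring

/-- `n_s(1)² = h_s(-1)` -/
theorem nG_sq (hD : InList D) {s : ℕ} (hs : s < D.nroots) : nG (F := K) hD s 1 ^ 2 = hG hD s (-1) := by
  rw [← ph_wd hD hs, ← map_pow, wd_sq, ph_hd, Units.val_neg, Units.val_one]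

theorem nG_mem_DS (hD : InList D) {s : ℕ} (hs : s < D.nroots) : nG (F := K) hD s 1 ∈ DS D K s := by
  rw [← ph_wd hD hs]
  exact ph_mem hD hs _

/-- `x_r(1) ∉ T` -/
theorem xG_not_mem_tor [Fintype K] (hm : D ∈ [chevG2, chevD4, chevF4, chevE6, chevE7, chevE8]) (hK : 13 ≤ Fintype.card K)
    {r : ℕ} (hr : r < D.nroots) {a : K} (ha : a ≠ 0) : xG (inList_of_mem hm) r a ∉ D.diagonalSubgroup K := by
  intro hx
  have hD := inList_of_mem hm
  obtain ⟨c, hc, hc2⟩ := H650.OT.exists_sq_ne hK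
  have h1 := H460.OT.diag_comm hD (hG_mem hD hr hc) hx
  rw [← mul_inv_eq_iff_eq_mul, tor_conj_xG hD (hG_mem hD hr hc) hr, chi_hG hD hr hr hc, H650.OT.pr_self hm hr] at h1
  have h2 := xG_injective hD hr h1
  exact hc2 (mul_right_cancel₀ ha (by rw [one_mul]; exact h2))

/-- `n_s(1) ∉ T` -/
theorem nG_not_mem_tor [Fintype K] (hm : D ∈ [chevG2, chevD4, chevF4, chevE6, chevE7, chevE8])
    (hK : 13 ≤ Fintype.card K) {s : ℕ} (hs : s < D.nroots) :
    nG (F := K) (inList_of_mem hm) s 1 ∉ D.diagonalSubgroup K := by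
  intro hn
  have hD := inList_of_mem hm
  -- `n_s(1) x_s(1) = x_{-s}(-1) n_s(1)`
  have e2 : (wd : Matrix.SpecialLinearGroup (Fin 2) K) * up 1 * wd⁻¹ = lo (-1) := by
    rw [mul_inv_eq_iff_eq_mul]
    apply ext2 <;> rw [mul2, mul2]
    · show (0 : K) * 1 + 1 * 0 = 1 * 0 + 0 * (-1)
      ring
    · show (0 : K) * 1 + 1 * 1 = 1 * 1 + 0 * 0
      ring
    · show (-1 : K) * 1 + 0 * 0 = -1 * 0 + 1 * (-1)
      ring
    · show (-1 : K) * 1 + 0 * 1 = -1 * 1 + 1 * 0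
      ring
  have e := congrArg (ph hD hs K) e2
  rw [map_mul, map_mul, map_inv, ph_wd, ph_up, ph_lo, tor_conj_xG hD hn hs, mul_one] at e
  have h1 := H82.RootCent.eq_of_xG_eq hD hs (NPerm.neg_lt hD hs) (chi_ne_zero hD hn s) e
  have h3 := H428.OT.pr_neg hD hs
  have h4 := H3.OT.pr_self hD hs
  rw [h1] at h3
  omega

variable [Fintype K] {p : ℕ} [Fact p.Prime] [CharP K p]

section Pair

variable {F : Subgroup (GL D.Idx K)} {s : ℕ}

/-- (i) `n_s(1) ∈ D_F` -/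
theorem end_n_mem (h : Hyp K p D) (hs : s < D.nroots) (hS : SF D K F = {s, D.neg s}) :
    nG h.inList s 1 ∈ DF D K F := by
  rw [DF_pair h.inList hS]
  exact nG_mem_DS h.inList hs

/-- (i) `n_s(1)² = h_s(-1)` -/
theorem end_n_sq (h : Hyp K p D) (hs : s < D.nroots) : (nG h.inList s 1 : GL D.Idx K) ^ 2 = hG h.inList s (-1) :=
  nG_sq h.inList hs

/-- (i) `n_s(1) ∉ T` -/
theorem end_n_not_mem (h : Hyp K p D) (hs : s < D.nroots) :
    (nG h.inList s 1 : GL D.Idx K) ∉ D.diagonalSubgroup K := nG_not_mem_tor h.mem h.card hs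

/-- (i) `z = h_s(-1) ∈ T` -/
theorem end_z_mem_tor (h : Hyp K p D) (hs : s < D.nroots) :
    (hG h.inList s (-1) : GL D.Idx K) ∈ D.diagonalSubgroup K := hG_mem h.inList hs neg_one_ne_zero'

/-- (i) `z = h_s(-1) ∈ D_F` -/
theorem end_z_mem_DF (h : Hyp K p D) (hs : s < D.nroots) (hS : SF D K F = {s, D.neg s}) :
    (hG h.inList s (-1) : GL D.Idx K) ∈ DF D K F := by
  rw [DF_pair h.inList hS]
  exact hG_mem_DS h.inList hs _ neg_one_ne_zero'

/-- (i) `z = h_s(-1)` centralises `D_F` -/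
theorem end_z_comm (h : Hyp K p D) (hs : s < D.nroots) (hS : SF D K F = {s, D.neg s}) {x : GL D.Idx K}
    (hx : x ∈ DF D K F) : hG h.inList s (-1) * x = x * hG h.inList s (-1) := by
  rw [DF_pair h.inList hS] at hx
  refine (comm_DS_iff h.inList hs (end_z_mem_tor h hs)).2 ?_ x hx
  rw [chi_hG h.inList hs hs neg_one_ne_zero', H650.OT.pr_self h.mem hs]
  norm_num

/-- (i) `z = h_s(-1) ∈ Y_0` -/
theorem end_z_mem_Y0 (h : Hyp K p D) (hs : s < D.nroots) (hS : SF D K F = {s, D.neg s}) :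
    (hG h.inList s (-1) : GL D.Idx K) ∈ Y0 D K F :=
  ⟨end_z_mem_tor h hs, mem_centralizer_iff.2 fun _ hx => (end_z_comm h hs hS hx).symm⟩

/-- (i) `z² = 1` -/
theorem end_z_sq (h : Hyp K p D) (hs : s < D.nroots) : (hG h.inList s (-1) : GL D.Idx K) ^ 2 = 1 := by
  rw [← nG_sq h.inList hs, ← ph_wd h.inList hs, ← map_pow, ← map_pow]
  have e : ((wd : Matrix.SpecialLinearGroup (Fin 2) K) ^ 2) ^ 2 = 1 := by
    rw [wd_sq, pow_two]
    apply ext2 <;> rw [mul2]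
    · show ((-1 : Kˣ) : K) * ((-1 : Kˣ) : K) + 0 * 0 = 1
      rw [Units.val_neg, Units.val_one]
      ring
    · show ((-1 : Kˣ) : K) * 0 + 0 * (((-1 : Kˣ)⁻¹ : Kˣ) : K) = 0
      ring
    · show (0 : K) * ((-1 : Kˣ) : K) + (((-1 : Kˣ)⁻¹ : Kˣ) : K) * 0 = 0
      ring
    · show (0 : K) * 0 + (((-1 : Kˣ)⁻¹ : Kˣ) : K) * (((-1 : Kˣ)⁻¹ : Kˣ) : K) = 1
      rw [inv_neg, inv_one, Units.val_neg, Units.val_one]
      ring
  rw [e, map_one]

/-- (i) `z ≠ 1` -/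
theorem end_z_ne (h : Hyp K p D) (hD : D = chevF4 ∨ D = chevG2) (hs : s < D.nroots) :
    (hG h.inList s (-1) : GL D.Idx K) ≠ 1 := by
  intro h1
  obtain ⟨a, ha, ho⟩ := (sd_of hD hs).odd
  have h3 := chi_hG (K := K) h.inList hs ha neg_one_ne_zero'
  rw [h1, chi_one, Odd.neg_one_zpow ho] at h3
  apply two_ne_zero' h hD
  linear_combination h3

/-- (i) `z` is central in `M_F` -/
theorem end_z_conj (h : Hyp K p D) (hD : D = chevF4 ∨ D = chevG2) (hF : MinBad D K F) (hs : s < D.nroots)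
    (hS : SF D K F = {s, D.neg s}) {m : GL D.Idx K} (hm : m ∈ MF D K F) :
    m * hG h.inList s (-1) * m⁻¹ = hG h.inList s (-1) := by
  have hK := h.card
  have hn := MF_le_normalizer_DF h hF.le hm
  have h1 : m * hG h.inList s (-1) * m⁻¹ ∈ DS D K s := by
    rw [← DF_pair h.inList hS]
    exact (mem_normalizer_iff.1 hn _).1 (end_z_mem_DF h hs hS)
  have h2 : (m * hG h.inList s (-1) * m⁻¹) ^ 2 = 1 := by
    rw [conj_pow, end_z_sq h hs, mul_one, mul_inv_cancel]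
  rcases involution h.inList hs (by omega) (two_ne_zero' h hD) (sd_of hD hs).odd h1 h2 with h3 | h3
  · exfalso
    apply end_z_ne (K := K) h hD hs
    rw [mul_inv_eq_one] at h3
    exact mul_left_cancel (h3.trans (mul_one m).symm)
  · exact h3

end Pair

/-- **(i)**, all together: `S_F = {s, -s}` in `F₄`, `G₂`. -/
theorem ends_pm (h : Hyp K p D) (hD : D = chevF4 ∨ D = chevG2) {F : Subgroup (GL D.Idx K)} (hF : MinBad D K F) {s : ℕ}
    (hs : s < D.nroots) (hS : SF D K F = {s, D.neg s}) :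
    ∃ n ∈ DF D K F, ∃ z ∈ Y0 D K F, z ∈ DF D K F ∧ n ^ 2 = z ∧ n ∉ D.diagonalSubgroup K ∧ z ^ 2 = 1 ∧ z ≠ 1 ∧
      ∀ m ∈ MF D K F, m * z * m⁻¹ = z :=
  ⟨_, end_n_mem h hs hS, _, end_z_mem_Y0 h hs hS, end_z_mem_DF h hs hS, end_n_sq h hs, end_n_not_mem h hs, end_z_sq h hs,
    end_z_ne h hD hs, fun _ hm => end_z_conj h hD hF hs hS hm⟩

/-- **(ii)** `a`, `c` and `-c` in `S_F`, `⟨a, c^∨⟩` odd: an involution `u = x_a(1) h_c(-1)` of `D_F` outside `T`. -/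
theorem ends_A2 (h : Hyp K p D) {F : Subgroup (GL D.Idx K)} {a c : ℕ} (ha : a ∈ SF D K F) (hc : c ∈ SF D K F)
    (hc' : D.neg c ∈ SF D K F) (hodd : Odd (pr D c a)) :
    ∃ u ∈ DF D K F, u ^ 2 = 1 ∧ u ∉ D.diagonalSubgroup K := by
  have hD := h.inList
  have hz : (hG hD c (-1) : GL D.Idx K) ∈ DF D K F := by
    have h1 := hG_mem_DS (K := K) hD hc.1 (-1) neg_one_ne_zero'
    exact (sup_le (rootSubgroup_le_DF hc) (rootSubgroup_le_DF hc')) h1
  have hzT : (hG hD c (-1) : GL D.Idx K) ∈ D.diagonalSubgroup K := hG_mem hD hc.1 neg_one_ne_zero'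
  have hx : (xG hD a 1 : GL D.Idx K) ∈ DF D K F := rootSubgroup_le_DF ha (xG_mem_rootSubgroup hD a 1)
  refine ⟨xG hD a 1 * hG hD c (-1), mul_mem hx hz, ?_, ?_⟩
  · have h1 := tor_conj_xG hD hzT ha.1 (1 : K)
    rw [chi_hG hD hc.1 ha.1 neg_one_ne_zero', Odd.neg_one_zpow hodd, mul_one] at h1
    have h2 := end_z_sq (K := K) h hc.1
    have e : ((xG hD a 1 : GL D.Idx K) * hG hD c (-1)) ^ 2 =
        xG hD a 1 * (hG hD c (-1) * xG hD a 1 * (hG hD c (-1))⁻¹) * hG hD c (-1) ^ 2 := by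
      rw [pow_two, pow_two]
      group
    rw [e, h1, h2, mul_one, xG_add, add_neg_cancel, xG_zero]
  · intro hu
    have h1 : (xG hD a 1 : GL D.Idx K) ∈ D.diagonalSubgroup K := (mul_mem_cancel_right hzT).1 hu
    exact xG_not_mem_tor h.mem h.card ha.1 one_ne_zero h1

end Cfsg.Agent.H274.OT
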