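import Cfsg.Agent.H412.OT.Defs

/-!
# The frame of S2539 (piece 0.4) for `D.group K`

* `exists_minBad` : a bad overgroup of `T` gives a least one;
* `MinBad.le_MF_of_lt` : proper overgroups of `T` in `F` lie in `MF D K F`;
* `BT` : the Borel–Tits input; `MinBad.op_eq_bot`, `MinBad.local_le` : consequences.
-/

set_option autoImplicit false

namespace Cfsg.Agent.H274.OT

open Cfsg Cfsg.Lie Cfsg.Lie.ChevalleyDatum
open Cfsg.Agent.ChevalleyStructure Cfsg.Agent.ChevalleyStructure.Elts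
open Cfsg.Agent.H412.OT

universe u

variable {D : ChevalleyDatum} {K : Type u} [Field K]

theorem isPGroup_root (hD : InList D) (p : ℕ) [CharP K p] (r : ℕ) : IsPGroup p ↥(D.rootSubgroup K r) := by
  rintro ⟨x, hx⟩
  refine ⟨1, Subtype.ext ?_⟩
  obtain ⟨a, rfl⟩ := (mem_rootSubgroup_iff hD r x).1 hx
  have key : ∀ k : ℕ, (xG hD r a : GL D.Idx K) ^ k = xG hD r (k • a) := by
    intro k
    induction k with
    | zero => rw [pow_zero, zero_smul, xG_zero]
    | succ k ih => rw [pow_succ, ih, xG_add, succ_nsmul]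
  rw [SubgroupClass.coe_pow]
  change (xG hD r a : GL D.Idx K) ^ p ^ 1 = 1
  rw [pow_one, key, nsmul_eq_mul, CharP.cast_eq_zero, zero_mul, xG_zero]

theorem root_ne_bot (hD : InList D) {r : ℕ} (hr : r < D.nroots) : D.rootSubgroup K r ≠ ⊥ := by
  intro h
  have h1 : (xG hD r 1 : GL D.Idx K) ∈ D.rootSubgroup K r := xG_mem_rootSubgroup hD r 1
  rw [h, Subgroup.mem_bot, xG_eq_one_iff hD hr] at h1
  exact one_ne_zero h1

theorem tor_le_normalizer_root (hD : InList D) {r : ℕ} (hr : r < D.nroots) :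
    D.diagonalSubgroup K ≤ Subgroup.normalizer (D.rootSubgroup K r : Set (GL D.Idx K)) := by
  intro t ht
  rw [Subgroup.mem_normalizer_iff]
  intro x
  refine ⟨fun hx => tor_conj_root hD ht hr hx, fun hx => ?_⟩
  have h1 := tor_conj_root hD (inv_mem ht) hr hx
  have e : t⁻¹ * (t * x * t⁻¹) * t⁻¹⁻¹ = x := by group
  rwa [e] at h1

theorem MF_mono {F F' : Subgroup (GL D.Idx K)} (h : F ≤ F') : MF D K F ≤ MF D K F' :=
  sup_le_sup (DF_mono h) (inf_le_inf_right _ h)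

/-- a bad overgroup of `T` gives a least one -/
theorem exists_minBad [Finite K] {F : Subgroup (GL D.Idx K)} (hT : D.diagonalSubgroup K ≤ F)
    (hG : F ≤ D.group K) (hbad : ¬ Good D K F) : ∃ F₀, F₀ ≤ F ∧ MinBad D K F₀ := by
  classical
  have hne : ∃ k, ∃ F₁ : Subgroup (GL D.Idx K), D.diagonalSubgroup K ≤ F₁ ∧ F₁ ≤ F ∧ ¬ Good D K F₁ ∧
      Nat.card F₁ = k := ⟨_, F, hT, le_rfl, hbad, rfl⟩
  obtain ⟨F₀, h1, h2, h3, hcard⟩ := Nat.find_spec hne
  refine ⟨F₀, h2, h1, le_trans h2 hG, h3, fun H hH hlt => ?_⟩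
  by_contra h4
  have h5 : Nat.card H < Nat.card F₀ := by
    refine lt_of_le_of_ne (Nat.card_le_card_of_injective (Subgroup.inclusion hlt.le)
      (Subgroup.inclusion_injective hlt.le)) fun h5 => ?_
    exact hlt.ne (Subgroup.eq_of_le_of_card_ge hlt.le (le_of_eq h5.symm))
  rw [hcard] at h5
  exact Nat.find_min hne h5 ⟨H, hH, le_trans hlt.le h2, h4, rfl⟩

/-- all overgroups of `T` are good if there is no least bad one -/
theorem good_of_no_minBad [Finite K] (h : ∀ F₀, ¬ MinBad D K F₀) {F : Subgroup (GL D.Idx K)}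
    (hT : D.diagonalSubgroup K ≤ F) (hG : F ≤ D.group K) : Good D K F := by
  by_contra hbad
  obtain ⟨F₀, -, h1⟩ := exists_minBad hT hG hbad
  exact h F₀ h1

end Cfsg.Agent.H274.OT

namespace Cfsg.Agent.H412.OT.MinBad

open Cfsg Cfsg.Lie Cfsg.Lie.ChevalleyDatum
open Cfsg.Agent.ChevalleyStructure Cfsg.Agent.ChevalleyStructure.Elts
open Cfsg.Agent.H412.OT Cfsg.Agent.H274.OT

universe u

variable {D : ChevalleyDatum} {K : Type u} [Field K] {F : Subgroup (GL D.Idx K)}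

/-- proper overgroups of `T` in `F` lie in `M` -/
theorem le_MF_of_lt (hF : MinBad D K F) {H : Subgroup (GL D.Idx K)} (hT : D.diagonalSubgroup K ≤ H)
    (hlt : H < F) : H ≤ MF D K F := le_trans (hF.min H hT hlt).le_MF (MF_mono hlt.le)

/-- an overgroup of `T` in `F` not contained in `M` is `F` -/
theorem eq_of_not_le (hF : MinBad D K F) {H : Subgroup (GL D.Idx K)} (hT : D.diagonalSubgroup K ≤ H)
    (h1 : H ≤ F) (hn : ¬ H ≤ MF D K F) : H = F := by
  by_contra hne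
  exact hn (hF.le_MF_of_lt hT (lt_of_le_of_ne h1 hne))

end Cfsg.Agent.H412.OT.MinBad

namespace Cfsg.Agent.H274.OT

open Cfsg Cfsg.Lie Cfsg.Lie.ChevalleyDatum
open Cfsg.Agent.ChevalleyStructure Cfsg.Agent.ChevalleyStructure.Elts
open Cfsg.Agent.H412.OT

universe u

/-- The Borel–Tits input: an overgroup `F` of `T` with `O_p(F) ≠ 1` is `V L`, `V` generated by root subgroups
in `F`, `T ≤ L < F`. -/
def BT (D : ChevalleyDatum) (K : Type u) [Field K] (p : ℕ) : Prop :=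
  ∀ F : Subgroup (GL D.Idx K), D.diagonalSubgroup K ≤ F → F ≤ D.group K → ∀ Q : Subgroup (GL D.Idx K), Q ≤ F →
    IsPGroup p ↥Q → Q ≠ ⊥ → F ≤ Subgroup.normalizer (Q : Set (GL D.Idx K)) →
    ∃ L : Subgroup (GL D.Idx K), D.diagonalSubgroup K ≤ L ∧ L < F ∧ ∀ x ∈ F, ∃ v ∈ DF D K F, ∃ l ∈ L, x = v * l

end Cfsg.Agent.H274.OT

namespace Cfsg.Agent.H412.OT.MinBad

open Cfsg Cfsg.Lie Cfsg.Lie.ChevalleyDatum
open Cfsg.Agent.ChevalleyStructure Cfsg.Agent.ChevalleyStructure.Elts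
open Cfsg.Agent.H412.OT Cfsg.Agent.H274.OT

universe u

variable {D : ChevalleyDatum} {K : Type u} [Field K] {F : Subgroup (GL D.Idx K)} {p : ℕ}

/-- `O_p(F) = 1` -/
theorem op_eq_bot (hBT : BT D K p) (hF : MinBad D K F) {Q : Subgroup (GL D.Idx K)} (hQF : Q ≤ F)
    (hQ : IsPGroup p ↥Q) (hN : F ≤ Subgroup.normalizer (Q : Set (GL D.Idx K))) : Q = ⊥ := by
  by_contra hQ1
  obtain ⟨L, hTL, hLF, hall⟩ := hBT F hF.tor hF.le Q hQF hQ hQ1 hN
  apply hF.bad
  intro x hx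
  obtain ⟨v, hv, l, hl, rfl⟩ := hall x hx
  obtain ⟨d, hd, n, hn, hn', rfl⟩ := hF.min L hTL hLF l hl
  exact ⟨v * d, mul_mem hv (DF_mono hLF.le hd), n, hLF.le hn, hn', by rw [mul_assoc]⟩

/-- normalisers of `T`-invariant `p`-subgroups are proper and lie in `M` -/
theorem local_lt (hBT : BT D K p) (hF : MinBad D K F) {Q : Subgroup (GL D.Idx K)} (hQF : Q ≤ F)
    (hQ : IsPGroup p ↥Q) (hQ1 : Q ≠ ⊥) : F ⊓ Subgroup.normalizer (Q : Set (GL D.Idx K)) < F := by
  refine lt_of_le_of_ne inf_le_left fun e => hQ1 (hF.op_eq_bot hBT hQF hQ ?_)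
  rw [← e]
  exact inf_le_right

theorem local_le (hBT : BT D K p) (hF : MinBad D K F) {Q : Subgroup (GL D.Idx K)} (hQF : Q ≤ F)
    (hQ : IsPGroup p ↥Q) (hQ1 : Q ≠ ⊥) (hT : D.diagonalSubgroup K ≤ Subgroup.normalizer (Q : Set (GL D.Idx K))) :
    F ⊓ Subgroup.normalizer (Q : Set (GL D.Idx K)) ≤ MF D K F :=
  hF.le_MF_of_lt (le_inf hF.tor hT) (hF.local_lt hBT hQF hQ hQ1)

/-- the normaliser of a root subgroup in `F` lies in `M` -/
theorem local_root (hD : InList D) [CharP K p] (hBT : BT D K p) (hF : MinBad D K F) {r : ℕ} (hr : r ∈ SF D K F) :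
    F ⊓ Subgroup.normalizer (D.rootSubgroup K r : Set (GL D.Idx K)) ≤ MF D K F :=
  hF.local_le hBT hr.2 (isPGroup_root hD p r) (root_ne_bot hD hr.1) (tor_le_normalizer_root hD hr.1)

end Cfsg.Agent.H412.OT.MinBad
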